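import Cfsg.Agent.ClassSizes.LargestTwoStructure
import Cfsg.Agent.ClassSizes.NotDvdIndex

/-!
Groups with the class sizes of `PSL₂(q)`: every noncentral `p`-element has class size `U`, its centraliser
is a `p`-group modulo the centre, and the centre has index `U * q`.
-/

set_option autoImplicit false

namespace CfsgLib.ClassSizesPSL2

open CfsgLib.TwoSizes (cen mem_cen IsPElt cen_mul_le center_le_cen)
open CfsgLib.CoprimeLargest

variable (G : Type*) [Group G]

/-- The arithmetic of the class sizes: `1`, `U` (prime to `p`) and the set `T` of multiples of `p`. -/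
structure Sizes (p q U A : ℕ) (T : Set ℕ) : Prop where
  hp : p.Prime
  hq : ∃ m, m ≠ 0 ∧ q = p ^ m
  hUq : ∃ d, (d = 1 ∨ (d = 2 ∧ p ≠ 2)) ∧ d * U + 1 = q ^ 2
  q4 : 4 ≤ q
  hU : ¬ p ∣ U
  hU1 : 1 < U
  mem : ∀ g : G, idx g = 1 ∨ idx g = U ∨ idx g ∈ T
  exU : ∃ g : G, idx g = U
  exT : ∀ τ ∈ T, ∃ g : G, idx g = τ
  pT : ∀ τ ∈ T, p ∣ τ
  UT : ∀ τ ∈ T, ¬ U ∣ τ
  mult : ∀ τ ∈ T, ∀ σ ∈ T, τ ∣ σ → σ = τ ∨ (σ = 2 * τ ∧ p ≠ 2)
  witness : ∀ τ ∈ T, ∃ r k, r.Prime ∧ r ≠ p ∧ ¬ r ^ k ∣ τ ∧ (r ^ k ∣ U ∨ ∃ σ ∈ T, r ^ k ∣ σ)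
  sep : ∀ r : ℕ, r.Prime → r ≠ p → ∃ τ ∈ T, ¬ r ∣ τ ∧ ∀ σ ∈ T, σ ∣ τ → σ = τ
  hA : A ∈ T ∧ (∀ σ ∈ T, σ ∣ A → σ = A) ∧ ∃ c, A = q * c ∧ ¬ p ∣ c

variable {G} [Finite G]

theorem coprime_pElt {r s : ℕ} (hr : r.Prime) (hs : s.Prime) (hrs : r ≠ s) {a b : G}
    (ha : IsPElt r a) (hb : IsPElt s b) : (orderOf a).Coprime (orderOf b) := by
  obtain ⟨i, hi⟩ := ha
  obtain ⟨j, hj⟩ := hb
  exact (((Nat.coprime_primes hr hs).2 hrs).pow i j).of_dvd
    (orderOf_dvd_of_pow_eq_one hi) (orderOf_dvd_of_pow_eq_one hj)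

theorem idx_left_dvd_mul {r s : ℕ} (hr : r.Prime) (hs : s.Prime) (hrs : r ≠ s) {a b : G}
    (ha : IsPElt r a) (hb : IsPElt s b) (hab : Commute a b) :
    idx a ∣ idx (a * b) ∧ idx b ∣ idx (a * b) :=
  ⟨idx_dvd_of_le ((cen_mul_le_inf hab (coprime_pElt hr hs hrs ha hb)).trans inf_le_left),
    idx_dvd_of_le ((cen_mul_le_inf hab (coprime_pElt hr hs hrs ha hb)).trans inf_le_right)⟩

theorem pElt_conj {r : ℕ} {v : G} (hv : IsPElt r v) (g : G) : IsPElt r (g * v * g⁻¹) := by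
  obtain ⟨k, hk⟩ := hv
  exact ⟨k, by rw [conj_pow, hk]; group⟩

/-- If `r` does not divide the class size of `v`, some conjugate of `v` commutes with a given `r`-element. -/
theorem exists_conj_commute {r : ℕ} (hr : r.Prime) {v : G} (hv : ¬ r ∣ idx v) {w : G} (hw : IsPElt r w) :
    ∃ g : G, w ∈ cen (g * v * g⁻¹) := by
  haveI := Fact.mk hr
  obtain ⟨P, hP⟩ := CfsgLib.ClassSizes.exists_sylow_le_of_not_dvd_index (cen v) hv
  have hpg : IsPGroup r (Subgroup.zpowers w) := by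
    obtain ⟨k, hk⟩ := hw
    refine fun x => ⟨k, Subtype.ext ?_⟩
    obtain ⟨i, hi⟩ := Subgroup.mem_zpowers_iff.1 x.2
    rw [Subgroup.coe_pow, OneMemClass.coe_one, ← hi, ← zpow_natCast, ← zpow_mul, mul_comm,
      zpow_mul, zpow_natCast, hk, one_zpow]
  obtain ⟨R, hR⟩ := hpg.exists_le_sylow
  obtain ⟨g, hg⟩ := MulAction.exists_smul_eq G P R
  have hwg : w ∈ (g • P : Sylow r G) := hg.symm ▸ hR (Subgroup.mem_zpowers w)
  rw [show (w ∈ (g • P : Sylow r G)) ↔ w ∈ ((g • P : Sylow r G) : Subgroup G) from Iff.rfl,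
    Sylow.coe_subgroup_smul, Subgroup.mem_pointwise_smul_iff_inv_smul_mem] at hwg
  have h1 := mem_cen.1 (hP hwg)
  simp only [MulAut.smul_def, MulAut.inv_apply, MulAut.conj_symm_apply] at h1
  refine ⟨g, mem_cen.2 ?_⟩
  calc w * (g * v * g⁻¹) = g * ((g⁻¹ * w * g) * v) * g⁻¹ := by group
    _ = g * (v * (g⁻¹ * w * g)) * g⁻¹ := by rw [h1]
    _ = _ := by group

theorem idx_dvd_center_index (g : G) : idx g ∣ (Subgroup.center G).index :=
  Subgroup.index_dvd_of_le (center_le_cen g)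

/-- If a prime power dividing `[G : Z]` does not divide the class size of `y`, then `y` commutes with a
noncentral element of that prime power order. -/
theorem exists_noncentral_commuting {r k : ℕ} (hr : r.Prime) {y : G} (hy : ¬ r ^ k ∣ idx y)
    (hk : r ^ k ∣ (Subgroup.center G).index) :
    ∃ w ∈ cen y, IsPElt r w ∧ w ∉ Subgroup.center G := by
  haveI := Fact.mk hr
  refine exists_prime_pElt_not_central r (cen y) ?_
  have h1 := (cen y).card_mul_index
  have h2 := (Subgroup.center G).card_mul_index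
  rw [hr.pow_dvd_iff_le_factorization Subgroup.index_ne_zero_of_finite] at hk
  rw [hr.pow_dvd_iff_le_factorization (idx_ne_zero y), not_le] at hy
  have e1 := congrArg (fun n => n.factorization r) h1
  have e2 := congrArg (fun n => n.factorization r) h2
  simp only [Nat.factorization_mul Nat.card_pos.ne' Subgroup.index_ne_zero_of_finite,
    Finsupp.add_apply] at e1 e2
  change _ + (idx y).factorization r = _ at e1
  omega

namespace Sizes

variable {p q U A : ℕ} {T : Set ℕ} (H : Sizes G p q U A T)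
include H

theorem not_dvd_U {τ : ℕ} (hτ : τ ∈ T) : ¬ τ ∣ U := fun h => H.hU ((H.pT τ hτ).trans h)

theorem idx_ne_one {g : G} (hg : g ∉ Subgroup.center G) : idx g ≠ 1 := fun h => hg ((idx_eq_one_iff g).1 h)

theorem eq_U_of_U_dvd {g : G} (h : U ∣ idx g) : idx g = U := by
  rcases H.mem g with e | e | e
  · rw [e] at h
    exact absurd (Nat.le_of_dvd one_pos h) (not_le.2 H.hU1)
  · exact e
  · exact absurd h (H.UT _ e)

theorem eq_U_of_dvd_U {g : G} (hg : g ∉ Subgroup.center G) (h : idx g ∣ U) : idx g = U := by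
  rcases H.mem g with e | e | e
  · exact absurd e (H.idx_ne_one hg)
  · exact e
  · exact absurd h (H.not_dvd_U e)

theorem not_central_of_U {g : G} (h : idx g = U) : g ∉ Subgroup.center G := fun hc =>
  H.hU1.ne' (h ▸ (idx_eq_one_iff g).2 hc)

theorem ne_one_of_T {τ : ℕ} (hτ : τ ∈ T) : τ ≠ 1 := fun e =>
  H.hp.one_lt.ne' (Nat.dvd_one.1 (e ▸ H.pT τ hτ))

theorem not_central_of_T {g : G} {τ : ℕ} (hτ : τ ∈ T) (h : idx g = τ) : g ∉ Subgroup.center G :=
  fun hc => H.ne_one_of_T hτ (h ▸ (idx_eq_one_iff g).2 hc)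

theorem exists_pElt_U : ∃ x : G, IsPElt p x ∧ idx x = U := by
  obtain ⟨g, hg⟩ := H.exU
  obtain ⟨r, w, hr, hw, -, hwZ, hle⟩ := exists_pElt_factor (H.not_central_of_U hg)
  have hwU : idx w = U := H.eq_U_of_dvd_U hwZ (hg ▸ idx_dvd_of_le hle)
  by_cases hrp : r = p
  · exact ⟨w, hrp ▸ hw, hwU⟩
  haveI := Fact.mk H.hp
  obtain ⟨τ, hτ⟩ : ∃ τ, τ ∈ T := ⟨A, H.hA.1⟩
  obtain ⟨t, ht⟩ := H.exT τ hτ
  have hpdvd : p ∣ (Subgroup.center G).index := (H.pT τ hτ).trans (ht ▸ idx_dvd_center_index t)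
  obtain ⟨y, hy, hyp, hyZ⟩ := exists_noncentral_commuting (k := 1) H.hp (y := w)
    (by rw [pow_one, hwU]; exact H.hU) (by rwa [pow_one])
  obtain ⟨h1, h2⟩ := idx_left_dvd_mul hr H.hp hrp hw hyp
    (show Commute w y from (mem_cen.1 hy).symm)
  have h3 : idx (w * y) = U := H.eq_U_of_U_dvd (hwU ▸ h1)
  exact ⟨y, hyp, H.eq_U_of_dvd_U hyZ (h3 ▸ h2)⟩

theorem exists_U_commuting {y : G} (hy : IsPElt p y) :
    ∃ x : G, IsPElt p x ∧ idx x = U ∧ x ∈ cen y := by
  obtain ⟨x, hx, hxU⟩ := H.exists_pElt_U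
  obtain ⟨g, hg⟩ := exists_conj_commute H.hp (v := x) (by rw [hxU]; exact H.hU) hy
  exact ⟨g * x * g⁻¹, pElt_conj hx g, by rw [idx_conj, hxU], mem_cen.2 (mem_cen.1 hg).symm⟩

theorem dvd_center_index_of_mem {n : ℕ} (h : n ∣ U ∨ ∃ σ ∈ T, n ∣ σ) :
    n ∣ (Subgroup.center G).index := by
  rcases h with h | ⟨σ, hσ, h⟩
  · obtain ⟨g, hg⟩ := H.exU
    exact h.trans (hg ▸ idx_dvd_center_index g)
  · obtain ⟨g, hg⟩ := H.exT σ hσ
    exact h.trans (hg ▸ idx_dvd_center_index g)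

/-- Every noncentral `p`-element has class size `U`. -/
theorem idx_pElt {y : G} (hy : IsPElt p y) (hyZ : y ∉ Subgroup.center G) : idx y = U := by
  rcases H.mem y with e | e | hτ
  · exact absurd e (H.idx_ne_one hyZ)
  · exact e
  exfalso
  obtain ⟨r, k, hr, hrp, hndvd, hdvd⟩ := H.witness _ hτ
  obtain ⟨w, hw, hwr, hwZ⟩ := exists_noncentral_commuting hr hndvd (H.dvd_center_index_of_mem hdvd)
  have hwy : Commute w y := mem_cen.1 hw
  obtain ⟨h1, h2⟩ := idx_left_dvd_mul hr H.hp hrp hwr hy hwy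
  have hwyT : idx (w * y) ∈ T := by
    rcases H.mem (w * y) with e | e | e
    · exact absurd (Nat.dvd_one.1 (e ▸ h2)) (H.ne_one_of_T hτ)
    · exact absurd (e ▸ h2) (H.not_dvd_U hτ)
    · exact e
  have hle := cen_mul_le_inf hwy (coprime_pElt hr H.hp hrp hwr hy)
  obtain ⟨x, hx, hxU, hxy⟩ := H.exists_U_commuting hy
  have hxw : x ∈ cen w := by
    rcases H.mult _ hτ _ hwyT h2 with e | ⟨e, hp2⟩
    · exact (hle.trans inf_le_left) ((cen_eq_of_le_of_idx (hle.trans inf_le_right) e.le).ge hxy)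
    · have hsub : ((cen (w * y)).subgroupOf (cen y)).index = 2 := by
        have h := Subgroup.relIndex_mul_index (hle.trans inf_le_right)
        change _ * idx y = idx (w * y) at h
        rw [e] at h
        exact Nat.eq_of_mul_eq_mul_right (Nat.pos_of_ne_zero (idx_ne_zero y)) h
      have hcop : Nat.Coprime 2 (orderOf x) := by
        obtain ⟨i, hi⟩ := hx
        exact (((Nat.coprime_primes Nat.prime_two H.hp).2 (Ne.symm hp2)).pow_right i).of_dvd_right
          (orderOf_dvd_of_pow_eq_one hi)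
      obtain ⟨n, hn⟩ := exists_pow_eq_self_of_coprime hcop
      have hsq : x ^ 2 ∈ cen (w * y) := by
        have := Subgroup.mul_self_mem_of_index_two hsub (⟨x, hxy⟩ : cen y)
        rw [Subgroup.mem_subgroupOf] at this
        rwa [pow_two]
      exact (hle.trans inf_le_left) (hn ▸ pow_mem hsq n)
  obtain ⟨g1, g2⟩ := idx_left_dvd_mul hr H.hp hrp hwr hx (mem_cen.1 hxw).symm
  have hwx : idx (w * x) = U := H.eq_U_of_U_dvd (hxU ▸ g2)
  have hwU : idx w = U := H.eq_U_of_dvd_U hwZ (hwx ▸ g1)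
  exact H.UT _ hwyT (hwU ▸ h1)

/-- Elements of order prime to `p` commuting with a noncentral `p`-element are central. -/
theorem central_of_commute {x : G} (hx : IsPElt p x) (hxZ : x ∉ Subgroup.center G) {r : ℕ}
    (hr : r.Prime) (hrp : r ≠ p) {w : G} (hw : IsPElt r w) (hwx : w ∈ cen x) :
    w ∈ Subgroup.center G := by
  by_contra hwZ
  have hc : Commute w x := mem_cen.1 hwx
  have hxU := H.idx_pElt hx hxZ
  obtain ⟨h1, h2⟩ := idx_left_dvd_mul hr H.hp hrp hw hx hc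
  have h3 : idx (w * x) = U := H.eq_U_of_U_dvd (hxU ▸ h2)
  have hwU : idx w = U := H.eq_U_of_dvd_U hwZ (h3 ▸ h1)
  have hle := cen_mul_le_inf hc (coprime_pElt hr H.hp hrp hw hx)
  have e1 : cen (w * x) = cen w := cen_eq_of_le_of_idx (hle.trans inf_le_left) (by rw [h3, hwU])
  have e2 : cen (w * x) = cen x := cen_eq_of_le_of_idx (hle.trans inf_le_right) (by rw [h3, hxU])
  obtain ⟨τ, hτ, hrτ, hmin⟩ := H.sep r hr hrp
  obtain ⟨g, hg⟩ := H.exT τ hτ
  obtain ⟨s, v, hs, hv, -, hvZ, hgv⟩ := exists_pElt_factor (H.not_central_of_T hτ hg)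
  have hvd : idx v ∣ τ := hg ▸ idx_dvd_of_le hgv
  have hvτ : idx v = τ := by
    rcases H.mem v with e | e | e
    · exact absurd e (H.idx_ne_one hvZ)
    · exact absurd (e ▸ hvd) (H.UT τ hτ)
    · exact hmin _ e hvd
  obtain ⟨k, hk⟩ := exists_conj_commute hr (v := v) (by rw [hvτ]; exact hrτ) hw
  set v' := k * v * k⁻¹
  have hv'τ : idx v' = τ := by rw [idx_conj, hvτ]
  have hv'x : v' ∈ cen x := e2 ▸ e1.symm ▸ mem_cen.2 (mem_cen.1 hk).symm
  have hsp : s ≠ p := by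
    rintro rfl
    exact absurd (hvτ ▸ H.idx_pElt hv hvZ : τ = U) fun e => H.UT τ hτ (e ▸ dvd_rfl)
  obtain ⟨f1, f2⟩ := idx_left_dvd_mul hs H.hp hsp (pElt_conj hv k) hx (mem_cen.1 hv'x)
  have h4 : idx (v' * x) = U := H.eq_U_of_U_dvd (hxU ▸ f2)
  exact H.not_dvd_U hτ (h4 ▸ hv'τ ▸ f1)

/-- The centraliser of a noncentral `p`-element has order `|Z| * p ^ n`. -/
theorem exists_card_cen {x : G} (hx : IsPElt p x) (hxZ : x ∉ Subgroup.center G) :
    ∃ n, Nat.card (cen x) = Nat.card (Subgroup.center G) * p ^ n := by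
  obtain ⟨c, hc⟩ := Subgroup.card_dvd_of_le (center_le_cen x)
  have hc0 : c ≠ 0 := fun e => Nat.card_pos.ne' (hc.trans (by rw [e, mul_zero]))
  refine ⟨c.primeFactorsList.length, ?_⟩
  rw [hc]
  congr 1
  refine Nat.eq_prime_pow_of_unique_prime_dvd hc0 fun {r} hr hrc => ?_
  by_contra hrp
  haveI := Fact.mk hr
  have hle := factorization_le_center r (cen x) fun e he her =>
    H.central_of_commute hx hxZ hr hrp her he
  rw [hc, Nat.factorization_mul Nat.card_pos.ne' hc0, Finsupp.add_apply] at hle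
  have := hr.factorization_pos_of_dvd hc0 hrc
  omega

/-- The centre has index `U * q`, and every noncentral `p`-element has centraliser of order `|Z| * q`. -/
theorem card_cen {x : G} (hx : IsPElt p x) (hxZ : x ∉ Subgroup.center G) :
    Nat.card (cen x) = Nat.card (Subgroup.center G) * q := by
  obtain ⟨n, hn⟩ := H.exists_card_cen hx hxZ
  obtain ⟨hAT, hmin, c, hAc, hpc⟩ := H.hA
  obtain ⟨m, -, hqm⟩ := H.hq
  obtain ⟨g, hg⟩ := H.exT A hAT
  obtain ⟨s, v, hs, hv, -, hvZ, hgv⟩ := exists_pElt_factor (H.not_central_of_T hAT hg)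
  have hvd : idx v ∣ A := hg ▸ idx_dvd_of_le hgv
  have hvA : idx v = A := by
    rcases H.mem v with e | e | e
    · exact absurd e (H.idx_ne_one hvZ)
    · exact absurd (e ▸ hvd) (H.UT A hAT)
    · exact hmin _ e hvd
  have hsp : s ≠ p := by
    rintro rfl
    exact absurd (hvA ▸ H.idx_pElt hv hvZ : A = U) fun e => H.UT A hAT (e ▸ dvd_rfl)
  haveI := Fact.mk H.hp
  have hvp : (Nat.card (cen v)).factorization p = (Nat.card (Subgroup.center G)).factorization p := by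
    refine le_antisymm (factorization_le_center p (cen v) fun e he hep => ?_)
      ((Nat.factorization_le_iff_dvd Nat.card_pos.ne' Nat.card_pos.ne').2
        (Subgroup.card_dvd_of_le (center_le_cen v)) p)
    by_contra heZ
    obtain ⟨f1, f2⟩ := idx_left_dvd_mul hs H.hp hsp hv hep (mem_cen.1 he).symm
    exact H.not_dvd_U hAT ((H.eq_U_of_U_dvd (H.idx_pElt hep heZ ▸ f2)) ▸ hvA ▸ f1)
  have h1 := (cen v).card_mul_index
  have h2 := (cen x).card_mul_index
  change _ * idx v = _ at h1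
  change _ * idx x = _ at h2
  rw [hvA, hAc, hqm] at h1
  rw [H.idx_pElt hx hxZ, hn] at h2
  have hc0 : c ≠ 0 := fun e => hpc (e ▸ dvd_zero p)
  have e1 := congrArg (fun n => n.factorization p) h1
  have e2 := congrArg (fun n => n.factorization p) h2
  simp only [Nat.factorization_mul Nat.card_pos.ne' (mul_ne_zero (pow_ne_zero m H.hp.ne_zero) hc0),
    Nat.factorization_mul (pow_ne_zero m H.hp.ne_zero) hc0,
    Nat.factorization_mul (mul_ne_zero Nat.card_pos.ne' (pow_ne_zero n H.hp.ne_zero))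
      (by have := H.hU1; omega : U ≠ 0),
    Nat.factorization_mul Nat.card_pos.ne' (pow_ne_zero n H.hp.ne_zero),
    Finsupp.add_apply, H.hp.factorization_pow, Finsupp.single_eq_same,
    Nat.factorization_eq_zero_of_not_dvd hpc, Nat.factorization_eq_zero_of_not_dvd H.hU, add_zero] at e1 e2
  rw [hn, hqm, show n = m by omega]

theorem index_center : (Subgroup.center G).index = U * q := by
  obtain ⟨x, hx, hxU⟩ := H.exists_pElt_U
  have h1 := (cen x).card_mul_index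
  change _ * idx x = _ at h1
  rw [hxU, H.card_cen hx (H.not_central_of_U hxU), ← (Subgroup.center G).card_mul_index,
    mul_assoc] at h1
  rw [← Nat.eq_of_mul_eq_mul_left Nat.card_pos h1, mul_comm]

end Sizes

end CfsgLib.ClassSizesPSL2
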