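import Cfsg.Agent.ClassSizesPSL2.Core
import Cfsg.Agent.ClassSizes.ConjRange

/-!
The centre quotient: centralisers of nontrivial `p`-elements are Sylow `p`-subgroups, and there are
`q ^ 2 - 1` such elements.
-/

set_option autoImplicit false

namespace CfsgLib.ClassSizesPSL2

open CfsgLib.TwoSizes (cen mem_cen IsPElt cen_mul_le center_le_cen)
open CfsgLib.CoprimeLargest

variable {G : Type*} [Group G] [Finite G] {p q U A : ℕ} {T : Set ℕ}

namespace Sizes

variable (H : Sizes G p q U A T)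
include H

/-- A nontrivial `p`-element of the quotient lifts to a noncentral `p`-element. -/
theorem exists_lift {ybar : G ⧸ Subgroup.center G} (hy : IsPElt p ybar) (h1 : ybar ≠ 1) :
    ∃ y : G, IsPElt p y ∧ y ∉ Subgroup.center G ∧ (y : G ⧸ Subgroup.center G) = ybar := by
  obtain ⟨g, rfl⟩ := QuotientGroup.mk_surjective ybar
  obtain ⟨a, ha⟩ := hy
  set n := orderOf g
  have hn : n ≠ 0 := (orderOf_pos g).ne'
  set k := ordCompl[p] n
  have hcop : Nat.Coprime k (orderOf (g : G ⧸ Subgroup.center G)) :=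
    ((Nat.coprime_ordCompl H.hp hn).symm.pow_right a).of_dvd_right (orderOf_dvd_of_pow_eq_one ha)
  obtain ⟨e, he⟩ := exists_pow_eq_self_of_coprime hcop
  refine ⟨(g ^ k) ^ e, ⟨n.factorization p, ?_⟩, fun hZ => h1 ?_, by push_cast; exact he⟩
  · rw [← pow_mul, ← pow_mul, show k * (e * p ^ n.factorization p) =
        (p ^ n.factorization p * k) * e by ring, Nat.ordProj_mul_ordCompl_eq_self, pow_mul,
      pow_orderOf_eq_one, one_pow]
  · rw [← he, ← QuotientGroup.mk_pow, ← QuotientGroup.mk_pow]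
    exact (QuotientGroup.eq_one_iff _).2 hZ

theorem q_pow : ∃ m, m ≠ 0 ∧ q = p ^ m := H.hq

/-- Elements commuting with a noncentral `p`-element modulo the centre commute with it. -/
theorem comap_cen {y : G} (hy : IsPElt p y) (hyZ : y ∉ Subgroup.center G) :
    (cen (y : G ⧸ Subgroup.center G)).comap (QuotientGroup.mk' (Subgroup.center G)) = cen y := by
  set D := (cen (y : G ⧸ Subgroup.center G)).comap (QuotientGroup.mk' (Subgroup.center G))
  have hle : cen y ≤ D := fun h hh => mem_cen.2 (by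
    show (h : G ⧸ Subgroup.center G) * (y : G ⧸ Subgroup.center G) = _
    rw [← QuotientGroup.mk_mul, mem_cen.1 hh]
    rfl)
  obtain ⟨a, ha⟩ := hy
  have hpow : ∀ h ∈ D, h ^ p ^ a ∈ cen y := by
    intro h hh
    have hcomm : (h : G ⧸ Subgroup.center G) * (y : G ⧸ Subgroup.center G) = y * h := mem_cen.1 hh
    set z := h * y * h⁻¹ * y⁻¹ with hz
    have hzc : z ∈ Subgroup.center G := by
      rw [← QuotientGroup.eq_one_iff, hz]
      simp only [QuotientGroup.mk_mul, QuotientGroup.mk_inv]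
      rw [hcomm]; group
    have hzy : h * y * h⁻¹ = z * y := by rw [hz]; group
    have hzall : ∀ g : G, Commute g z := fun g => Subgroup.mem_center_iff.1 hzc g
    have hz1 : z ^ p ^ a = 1 := by
      have h1 : (h * y * h⁻¹) ^ p ^ a = 1 := by rw [conj_pow, ha]; group
      rw [hzy, (hzall y).symm.mul_pow, ha, mul_one] at h1
      exact h1
    have hj : ∀ j : ℕ, h ^ j * y * (h ^ j)⁻¹ = z ^ j * y := by
      intro j
      induction j with
      | zero => simp
      | succ j ih =>
        rw [show h ^ (j + 1) * y * (h ^ (j + 1))⁻¹ = h * (h ^ j * y * (h ^ j)⁻¹) * h⁻¹ by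
          rw [pow_succ']; group, ih, show h * (z ^ j * y) * h⁻¹ = (h * z ^ j * h⁻¹) * (h * y * h⁻¹) by group,
          show h * z ^ j * h⁻¹ = z ^ j by rw [((hzall h).pow_right j).eq, mul_inv_cancel_right],
          pow_succ, mul_assoc (z ^ j) z y, ← hzy]
    refine mem_cen.2 ?_
    have h2 := hj (p ^ a)
    rw [hz1, one_mul, mul_inv_eq_iff_eq_mul] at h2
    exact h2
  by_contra hne
  obtain ⟨c, hc⟩ := Subgroup.card_dvd_of_le hle
  have hc1 : c ≠ 1 := fun e => hne (Subgroup.eq_of_le_of_card_ge hle (by rw [hc, e, mul_one])).symm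
  have hidx := Subgroup.relIndex_mul_index hle
  have hrel : (cen y).relIndex D = c := by
    have h := ((cen y).subgroupOf D).card_mul_index
    rw [Nat.card_congr (Subgroup.subgroupOfEquivOfLe hle).toEquiv, hc] at h
    exact Nat.eq_of_mul_eq_mul_left Nat.card_pos h
  have hcU : c ∣ U := by
    have : idx y = U := H.idx_pElt ⟨a, ha⟩ hyZ
    rw [hrel] at hidx
    change c * _ = idx y at hidx
    exact ⟨_, (hidx.trans this).symm⟩
  obtain ⟨r, hr, hrc⟩ := Nat.exists_prime_and_dvd hc1
  have hrp : r ≠ p := fun e => H.hU (e ▸ hrc.trans hcU)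
  haveI := Fact.mk hr
  have hlt : (Nat.card (Subgroup.center G)).factorization r < (Nat.card D).factorization r := by
    have hc0 : c ≠ 0 := fun e => Nat.card_pos.ne' (hc.trans (by rw [e, mul_zero]))
    rw [hc, Nat.factorization_mul Nat.card_pos.ne' hc0, Finsupp.add_apply]
    have := hr.factorization_pos_of_dvd hc0 hrc
    have := (Nat.factorization_le_iff_dvd Nat.card_pos.ne' Nat.card_pos.ne').2
      (Subgroup.card_dvd_of_le (center_le_cen y)) r
    omega
  obtain ⟨h, hh, hhr, hhZ⟩ := exists_prime_pElt_not_central r D hlt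
  have hcent := H.central_of_commute ⟨a, ha⟩ hyZ hr hrp
    (w := h ^ p ^ a) (by obtain ⟨i, hi⟩ := hhr; exact ⟨i, by rw [← pow_mul, mul_comm, pow_mul, hi, one_pow]⟩)
    (hpow h hh)
  obtain ⟨i, hi⟩ := hhr
  obtain ⟨n, hn⟩ := exists_pow_eq_self_of_coprime (x := h)
    ((((Nat.coprime_primes H.hp hr).2 (Ne.symm hrp)).pow a i).of_dvd_right
      (orderOf_dvd_of_pow_eq_one hi))
  exact hhZ (hn ▸ pow_mem hcent n)

theorem card_bar : Nat.card (G ⧸ Subgroup.center G) = U * q := by
  rw [← Subgroup.index_eq_card]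
  exact H.index_center

theorem card_cen_bar {ybar : G ⧸ Subgroup.center G} (hy : IsPElt p ybar) (h1 : ybar ≠ 1) :
    Nat.card (cen ybar) = q := by
  obtain ⟨y, hyp, hyZ, rfl⟩ := H.exists_lift hy h1
  have h := (cen (y : G ⧸ Subgroup.center G)).index_comap_of_surjective
    (f := QuotientGroup.mk' (Subgroup.center G)) (QuotientGroup.mk'_surjective _)
  rw [H.comap_cen hyp hyZ] at h
  have h2 := (cen (y : G ⧸ Subgroup.center G)).card_mul_index
  rw [← h, H.card_bar] at h2
  change _ * idx y = _ at h2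
  rw [H.idx_pElt hyp hyZ, mul_comm U] at h2
  exact Nat.eq_of_mul_eq_mul_right (by have := H.hU1; omega) h2

theorem idx_bar {ybar : G ⧸ Subgroup.center G} (hy : IsPElt p ybar) (h1 : ybar ≠ 1) : idx ybar = U := by
  have h := (cen ybar).card_mul_index
  rw [H.card_bar, H.card_cen_bar hy h1, mul_comm U] at h
  exact Nat.eq_of_mul_eq_mul_left (by have := H.q4; omega) h

theorem isPElt_of_commute {ybar g : G ⧸ Subgroup.center G} (hy : IsPElt p ybar) (h1 : ybar ≠ 1)
    (h : g ∈ cen ybar) : IsPElt p g := by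
  obtain ⟨m, -, hm⟩ := H.hq
  refine ⟨m, ?_⟩
  have := pow_card_eq_one' (x := (⟨g, h⟩ : cen ybar))
  rw [H.card_cen_bar hy h1, hm] at this
  simpa using congrArg Subtype.val this

theorem card_sylow (P : Sylow p (G ⧸ Subgroup.center G)) : Nat.card (P : Subgroup (G ⧸ Subgroup.center G)) = q := by
  haveI := Fact.mk H.hp
  obtain ⟨m, -, hm⟩ := H.hq
  rw [P.card_eq_multiplicity, H.card_bar, Nat.factorization_mul (by have := H.hU1; omega)
    (by have := H.q4; omega), Finsupp.add_apply, Nat.factorization_eq_zero_of_not_dvd H.hU, zero_add,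
    hm, H.hp.factorization_pow, Finsupp.single_eq_same]

theorem pElt_of_mem (P : Sylow p (G ⧸ Subgroup.center G)) {x : G ⧸ Subgroup.center G}
    (hx : x ∈ (P : Subgroup (G ⧸ Subgroup.center G))) : IsPElt p x := by
  obtain ⟨k, hk⟩ := P.2 ⟨x, hx⟩
  exact ⟨k, congrArg Subtype.val hk⟩

theorem q_dvd_card_nonP : q ∣ Nat.card {g : G ⧸ Subgroup.center G // ¬ IsPElt p g} := by
  classical
  obtain ⟨P⟩ : Nonempty (Sylow p (G ⧸ Subgroup.center G)) := inferInstance
  set Y := {g : G ⧸ Subgroup.center G // ¬ IsPElt p g}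
  let _ : MulAction (P : Subgroup (G ⧸ Subgroup.center G)) Y :=
    { smul := fun u g => ⟨(u : G ⧸ Subgroup.center G) * g.1 * (u : G ⧸ Subgroup.center G)⁻¹, fun h => g.2 (by
        have h' := pElt_conj h (u : G ⧸ Subgroup.center G)⁻¹
        rwa [inv_inv, show (u : G ⧸ Subgroup.center G)⁻¹ * ((u : G ⧸ Subgroup.center G) * g.1 *
          (u : G ⧸ Subgroup.center G)⁻¹) * u = g.1 by group] at h')⟩
      one_smul := fun g => Subtype.ext (show (1 : G ⧸ Subgroup.center G) * g.1 * 1⁻¹ = g.1 by simp)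
      mul_smul := fun u v g => Subtype.ext (show _ * g.1 * _ = _ * (_ * g.1 * _) * _ by
        rw [Subgroup.coe_mul]; group) }
  have hstab : ∀ g : Y, MulAction.stabilizer (P : Subgroup (G ⧸ Subgroup.center G)) g = ⊥ := by
    intro g
    rw [Subgroup.eq_bot_iff_forall]
    intro u hu
    by_contra hu1
    have hfix : (u : G ⧸ Subgroup.center G) * g.1 * (u : G ⧸ Subgroup.center G)⁻¹ = g.1 :=
      congrArg Subtype.val hu
    refine g.2 (H.isPElt_of_commute (H.pElt_of_mem P u.2) (fun e => hu1 (Subtype.ext e)) (mem_cen.2 ?_))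
    exact (mul_inv_eq_iff_eq_mul.1 hfix).symm
  haveI := Fintype.ofFinite (MulAction.orbitRel.Quotient (P : Subgroup (G ⧸ Subgroup.center G)) Y)
  rw [Nat.card_congr (MulAction.selfEquivSigmaOrbits (P : Subgroup (G ⧸ Subgroup.center G)) Y),
    Nat.card_sigma]
  refine Finset.dvd_sum fun ω _ => ?_
  rw [Nat.card_coe_set_eq, ← MulAction.index_stabilizer, hstab, Subgroup.index_bot, H.card_sylow P]

theorem U_dvd_card_pElts :
    U ∣ Nat.card {g : G ⧸ Subgroup.center G // g ≠ 1 ∧ IsPElt p g} := by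
  classical
  haveI := Fintype.ofFinite (G ⧸ Subgroup.center G)
  rw [Nat.card_eq_fintype_card, Fintype.card_subtype]
  set s := Finset.univ.filter fun g : G ⧸ Subgroup.center G => g ≠ 1 ∧ IsPElt p g with hs
  rw [Finset.card_eq_sum_card_fiberwise (f := ConjClasses.mk) (t := s.image ConjClasses.mk)
    (fun g hg => Finset.mem_image_of_mem _ hg)]
  refine Finset.dvd_sum fun c hc => ?_
  obtain ⟨x, hx, rfl⟩ := Finset.mem_image.1 hc
  obtain ⟨hx1, hxp⟩ := (Finset.mem_filter.1 hx).2
  have : (↑(s.filter fun g => ConjClasses.mk g = ConjClasses.mk x) : Set (G ⧸ Subgroup.center G)) =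
      Set.range fun g => g * x * g⁻¹ := by
    ext g
    simp only [Finset.coe_filter, Set.mem_setOf_eq, ConjClasses.mk_eq_mk_iff_isConj, Set.mem_range]
    constructor
    · rintro ⟨-, h⟩
      exact isConj_iff.1 h.symm
    · rintro ⟨k, rfl⟩
      refine ⟨Finset.mem_filter.2 ⟨Finset.mem_univ _, fun e => hx1 (conj_eq_one_iff.1 e), pElt_conj hxp k⟩, ?_⟩
      exact (isConj_iff.2 ⟨k, rfl⟩).symm
  rw [← Set.ncard_coe_finset, this, CfsgLib.ClassSizes.ncard_conjRange]
  exact (H.idx_bar hxp hx1).symm.dvd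

/-- The number of nontrivial `p`-elements. -/
theorem card_pElts :
    Nat.card {g : G ⧸ Subgroup.center G // g ≠ 1 ∧ IsPElt p g} = q ^ 2 - 1 := by
  classical
  haveI := Fintype.ofFinite (G ⧸ Subgroup.center G)
  haveI := Fact.mk H.hp
  obtain ⟨m, hm⟩ := H.U_dvd_card_pElts
  obtain ⟨d, hd, hdU⟩ := H.hUq
  have hYq := H.q_dvd_card_nonP
  have htot : Nat.card {g : G ⧸ Subgroup.center G // g ≠ 1 ∧ IsPElt p g} + 1 +
      Nat.card {g : G ⧸ Subgroup.center G // ¬ IsPElt p g} = U * q := by
    rw [← H.card_bar]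
    simp only [Nat.card_eq_fintype_card, Fintype.card_subtype]
    have h1 : (1 : G ⧸ Subgroup.center G) ∉ Finset.univ.filter fun g => g ≠ 1 ∧ IsPElt p g := by simp
    rw [← Finset.card_insert_of_notMem h1, ← Finset.card_union_of_disjoint, Finset.card_univ.symm]
    · congr 1
      ext g
      simp only [Finset.mem_union, Finset.mem_insert, Finset.mem_filter, Finset.mem_univ, true_and]
      tauto
    · rw [Finset.disjoint_left]
      intro g hg hg'
      rcases Finset.mem_insert.1 hg with rfl | hg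
      · exact (Finset.mem_filter.1 hg').2 ⟨0, one_pow _⟩
      · exact (Finset.mem_filter.1 hg').2 (Finset.mem_filter.1 hg).2.2
  obtain ⟨k, hk⟩ := hYq
  rw [hm, hk] at htot
  have hm1 : m ≠ 0 := by
    rintro rfl
    obtain ⟨P⟩ : Nonempty (Sylow p (G ⧸ Subgroup.center G)) := inferInstance
    have hne : (P : Subgroup (G ⧸ Subgroup.center G)) ≠ ⊥ := fun e => by
      have := H.card_sylow P
      rw [e, Subgroup.card_bot] at this
      have := H.q4
      omega
    obtain ⟨x, hx, hx1⟩ := (Subgroup.bot_or_exists_ne_one _).resolve_left hne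
    rw [mul_zero, Nat.card_eq_zero] at hm
    rcases hm with hm | hm
    · exact hm.elim ⟨x, hx1, H.pElt_of_mem P hx⟩
    · exact (not_infinite_iff_finite.2 inferInstance) hm
  have hq4 := H.q4
  have hU1 := H.hU1
  have hmq : m < q := by
    have : U * m < U * q := by omega
    exact Nat.lt_of_mul_lt_mul_left this
  -- `q ∣ 1 + m U` and `d U ≡ -1`
  have h2 : (q : ℤ) ∣ (d : ℤ) - m := by
    refine ⟨(d : ℤ) * U - (d : ℤ) * k - (q : ℤ) * m, ?_⟩
    have e1 : ((U : ℤ) * m + 1 + q * k) = U * q := by exact_mod_cast htot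
    have e2 : ((d : ℤ) * U + 1) = (q : ℤ) ^ 2 := by exact_mod_cast hdU
    linear_combination (d : ℤ) * e1 - (m : ℤ) * e2
  have hdm : d = m := by
    have hd2 : d ≤ 2 ∧ 1 ≤ d := by rcases hd with h | ⟨h, -⟩ <;> omega
    have habs : |(d : ℤ) - m| < q := by
      rw [abs_lt]; constructor <;> omega
    have := Int.eq_zero_of_abs_lt_dvd h2 habs
    omega
  rw [hm, ← hdm, mul_comm]
  omega

end Sizes

end CfsgLib.ClassSizesPSL2
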